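import Cfsg.Agent.H625.SylConst
import Cfsg.Agent.H33.RD
import Cfsg.Agent.S0190
import Cfsg.Agent.S0907

/-!
# The counting criterion for `p`-blocks and for constituents of the Sylow permutation character (helper928)

`cnt p s g` : the number of conjugates `x` of `s` such that `x g⁻¹` is a `p`-element.

* `exists_of_cnt` : if `p` does not divide `cnt p s g`, some irreducible constituent of the permutation
  character on a Sylow `p`-subgroup has central character nonzero modulo `M` at `s`;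
* `IMC.of_cnt` : if moreover `p` divides the class size of `s`, `IMC p G` (`H625.SylConst`, for S4526);
* `not_principal_of_cnt` : and this character is not in the principal block (for S5003);
* `exists_notMem_of_cnt` : the same for any class, if `g` is not a `p`-element.
-/

set_option autoImplicit false

open Cfsg

namespace Cfsg.Agent.H928.Blk

open Cfsg.Agent.Characters.Core Cfsg.Agent.Blocks.Basic Cfsg.Agent.Blocks.Local
  Cfsg.Agent.OddOrderCharacters.IndRes Cfsg.Agent.H625.SylConst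
open scoped ComplexConjugate

universe u

variable {G : Type u} [Group G] [Finite G] {p : ℕ} [hp : Fact p.Prime] {M : Ideal AlgInt}

/-- The number of conjugates `x` of `s` such that `x g⁻¹` is a `p`-element. -/
noncomputable def cnt (p : ℕ) {G : Type u} [Group G] (s g : G) : ℕ :=
  Nat.card {x : G // IsConj s x ∧ ∃ k : ℕ, orderOf (x * g⁻¹) = p ^ k}

omit [Finite G] in
/-- A `p`-element has as many fixed points modulo `p` as there are points. -/
theorem card_fixedBy_modEq {X : Type*} [MulAction G X] [Finite X] {z : G} (hz : ∃ k : ℕ, orderOf z = p ^ k) :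
    Nat.card (MulAction.fixedBy X z) ≡ Nat.card X [MOD p] := by
  obtain ⟨k, hk⟩ := hz
  have h1 : IsPGroup p (Subgroup.zpowers z) := IsPGroup.of_card (n := k) (by
    rw [Nat.card_zpowers, hk])
  have h2 := h1.card_modEq_card_fixedPoints X
  have h3 : MulAction.fixedPoints (Subgroup.zpowers z) X = MulAction.fixedBy X z := by
    ext x
    rw [MulAction.mem_fixedPoints, MulAction.mem_fixedBy]
    constructor
    · intro h
      exact h ⟨z, Subgroup.mem_zpowers z⟩
    · rintro h ⟨y, hy⟩
      obtain ⟨n, rfl⟩ := Subgroup.mem_zpowers_iff.1 hy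
      show z ^ n • x = x
      have h4 : z ∈ MulAction.stabilizer G x := h
      exact (MulAction.stabilizer G x).zpow_mem h4 n
  rw [h3] at h2
  exact h2.symm

omit [Finite G] in
/-- An element fixing a coset of a Sylow `p`-subgroup is a `p`-element. -/
theorem card_fixedBy_eq_zero (P : Sylow p G) {z : G} (hz : ¬ ∃ k : ℕ, orderOf z = p ^ k) :
    Nat.card (MulAction.fixedBy (G ⧸ (P : Subgroup G)) z) = 0 := by
  have : IsEmpty (MulAction.fixedBy (G ⧸ (P : Subgroup G)) z) := by
    refine ⟨?_⟩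
    rintro ⟨x, hx⟩
    apply hz
    obtain ⟨y, rfl⟩ := QuotientGroup.mk_surjective x
    rw [MulAction.mem_fixedBy, MulAction.Quotient.smul_mk, QuotientGroup.eq, smul_eq_mul] at hx
    have h2 : y⁻¹ * z * y ∈ (P : Subgroup G) := by
      have h3 := (P : Subgroup G).inv_mem hx
      have h4 : ((z * y)⁻¹ * y)⁻¹ = y⁻¹ * z * y := by group
      rwa [h4] at h3
    obtain ⟨k, hk⟩ := (IsPGroup.iff_orderOf.1 P.isPGroup') ⟨_, h2⟩
    refine ⟨k, ?_⟩
    rw [Subgroup.orderOf_mk] at hk
    rw [← hk]
    have h5 : y⁻¹ * z * y = MulAut.conj y⁻¹ z := by simp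
    rw [h5]
    exact (orderOf_injective (MulAut.conj y⁻¹).toMonoidHom (MulAut.conj y⁻¹).injective z).symm
  exact Nat.card_of_isEmpty

omit hp in
open scoped Classical in
/-- The basic identity. -/
theorem exists_sum_eq [Fintype G] [Fintype (IrrCharacter G)] (P : Sylow p G) :
    ∃ m : IrrCharacter G → ℕ, (∀ χ, m χ ≠ 0 → Fix (P : Subgroup G) (χ : G → ℂ)) ∧ ∀ s g : G,
      ((∑ u with IsConj s u, Nat.card (MulAction.fixedBy (G ⧸ (P : Subgroup G)) (u * g⁻¹)) : ℕ) : ℂ) =
      ∑ χ : IrrCharacter G, (m χ : ℂ) * (centralChar (χ : G → ℂ) s * (χ : G → ℂ) g⁻¹) := by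
  have : Fintype (P : Subgroup G) := Fintype.ofFinite _
  set π : G → ℂ := indFun (P : Subgroup G) (fun _ => (1 : ℂ)) with hπ
  have hπ1 : ∀ z : G, π z = (Nat.card (MulAction.fixedBy (G ⧸ (P : Subgroup G)) z) : ℂ) := by
    intro z
    have h := Cfsg.Agent.S0190.result (G := G) (G ⧸ (P : Subgroup G))
      ((1 : G) : G ⧸ (P : Subgroup G))
    rw [MulAction.stabilizer_quotient] at h
    rw [hπ, ← h]
  have hcl : IsClassFunction G π := isClassFunction_indFun _ _
  have hinner : ∀ χ : IrrCharacter G, ∃ m : ℕ, classInner π (χ : G → ℂ) = m := by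
    intro χ
    have h1 : IsCharacter G π := isCharacter_indFun _ (isCharacter_one (G := (P : Subgroup G)))
    exact classInner_isNat h1 (isIrr_isCharacter χ.2)
  choose m hm using hinner
  refine ⟨m, fun χ hχ => ?_, ?_⟩
  · rw [← fix_of_inner (P : Subgroup G) χ]
    change classInner π (χ : G → ℂ) ≠ 0
    rw [hm χ]
    exact_mod_cast hχ
  · intro s g
    push_cast
    have h1 : ∀ u : G, (Nat.card (MulAction.fixedBy (G ⧸ (P : Subgroup G)) (u * g⁻¹)) : ℂ) =
        ∑ χ : IrrCharacter G, (m χ : ℂ) * (χ : G → ℂ) (u * g⁻¹) := by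
      intro u
      rw [← hπ1]
      have h2 := classFunction_eq_sum hcl
      conv_lhs => rw [h2]
      rw [Finset.sum_apply]
      refine Finset.sum_congr rfl fun χ _ => ?_
      rw [Pi.smul_apply, smul_eq_mul, hm χ]
    rw [Finset.sum_congr rfl fun u _ => h1 u, Finset.sum_comm]
    refine Finset.sum_congr rfl fun χ _ => ?_
    rw [← Finset.mul_sum, Cfsg.Agent.Characters.ClassMul.sum_class_char_mul χ.2 s g⁻¹]
    unfold centralChar
    ring

open scoped Classical in
/-- The left side of the identity modulo `p`. -/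
theorem sum_modEq [Fintype G] (P : Sylow p G) (s g : G) :
    ∑ u with IsConj s u, Nat.card (MulAction.fixedBy (G ⧸ (P : Subgroup G)) (u * g⁻¹)) ≡
      cnt p s g * (P : Subgroup G).index [MOD p] := by
  have h1 : cnt p s g = (Finset.univ.filter (fun u : G => IsConj s u ∧
      ∃ k : ℕ, orderOf (u * g⁻¹) = p ^ k)).card := by
    rw [cnt, Nat.card_eq_fintype_card, Fintype.card_subtype]
  rw [h1, ← Finset.filter_filter, ← Finset.sum_filter_add_sum_filter_not
    (Finset.univ.filter (IsConj s)) (fun u => ∃ k : ℕ, orderOf (u * g⁻¹) = p ^ k)]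
  have h2 : ∑ u ∈ (Finset.univ.filter (IsConj s)).filter
      (fun u => ¬ ∃ k : ℕ, orderOf (u * g⁻¹) = p ^ k),
      Nat.card (MulAction.fixedBy (G ⧸ (P : Subgroup G)) (u * g⁻¹)) = 0 := by
    refine Finset.sum_eq_zero fun u hu => ?_
    exact card_fixedBy_eq_zero P (Finset.mem_filter.1 hu).2
  rw [h2, add_zero, ← smul_eq_mul, ← Finset.sum_const]
  refine Nat.ModEq.sum fun u hu => ?_
  exact card_fixedBy_modEq (Finset.mem_filter.1 hu).2

/-- If `p` does not divide `cnt p s g`, some irreducible constituent `χ` of the permutation character on a Sylow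
`p`-subgroup satisfies `ω_χ(s) χ(g⁻¹) ≠ 0` modulo `M`. -/
theorem exists_of_cnt (hM : IsPModular p M) (P : Sylow p G) {s g : G} (h : ¬ p ∣ cnt p s g) :
    ∃ χ : IrrCharacter G, Fix (P : Subgroup G) (χ : G → ℂ) ∧
      ¬ MemLocalIdeal M (centralChar (χ : G → ℂ) s) := by
  classical
  have hMp : M.IsPrime := isPrime_of_isPModular hM
  have := Fintype.ofFinite G
  have : Finite (IrrCharacter G) := finite_irr
  have := Fintype.ofFinite (IrrCharacter G)
  by_contra hcon
  push Not at hcon
  obtain ⟨m, hm, he⟩ := exists_sum_eq P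
  have h1 : MemLocalIdeal M ((∑ u with IsConj s u,
      Nat.card (MulAction.fixedBy (G ⧸ (P : Subgroup G)) (u * g⁻¹)) : ℕ) : ℂ) := by
    rw [he s g]
    refine memLocalIdeal_sum fun χ _ => ?_
    by_cases h0 : m χ = 0
    · rw [h0, Nat.cast_zero, zero_mul]
      exact memLocalIdeal_zero
    · refine memLocalIdeal_mul_left (memLocalRing_natCast _) ?_
      refine memLocalIdeal_mul_right (hcon χ (hm χ h0)) ?_
      exact memLocalRing_of_isIntegral (H665.DefZero.isIntegral_char (isIrr_isCharacter χ.2) g⁻¹)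
  have h2 := (memLocalIdeal_natCast_iff hM _).1 h1
  have h3 := (Nat.modEq_zero_iff_dvd.2 h2).symm.trans (sum_modEq P s g)
  have h4 := Nat.modEq_zero_iff_dvd.1 h3.symm
  rcases (hp.out.dvd_mul).1 h4 with h5 | h5
  · exact h h5
  · exact P.not_dvd_index h5

/-- The criterion for `IMC`. -/
theorem IMC_of_cnt {s g : G} (hs : p ∣ (Subgroup.centralizer ({s} : Set G)).index)
    (h : ¬ p ∣ cnt p s g) : IMC p G := by
  obtain ⟨M, hM⟩ := Cfsg.Agent.Blocks.Knorr.exists_isPModular p
  obtain ⟨P⟩ : Nonempty (Sylow p G) := inferInstance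
  obtain ⟨χ, h1, h2⟩ := exists_of_cnt hM P h
  refine ⟨χ, P, ?_, h1⟩
  have h3 := Cfsg.Agent.Blocks.DefectCard.factorization_index_le hM χ.2 s h2
  have h4 : 1 ≤ (Subgroup.centralizer ({s} : Set G)).index.factorization p :=
    hp.out.factorization_pos_of_dvd Subgroup.index_ne_zero_of_finite hs
  have h5 : charDegree (χ : G → ℂ) ≠ 0 := (Cfsg.Agent.Blocks.Basic.charDegree_pos χ.2).ne'
  exact (hp.out.dvd_iff_one_le_factorization h5).2 (h4.trans h3)

/-- The same criterion gives a nonprincipal block. -/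
theorem not_principal_of_cnt (hM : IsPModular p M) {s g : G}
    (hs : p ∣ (Subgroup.centralizer ({s} : Set G)).index) (h : ¬ p ∣ cnt p s g) :
    ∃ χ : IrrCharacter G, χ ∉ principalBlock M G := by
  have hMp : M.IsPrime := isPrime_of_isPModular hM
  obtain ⟨P⟩ : Nonempty (Sylow p G) := inferInstance
  obtain ⟨χ, h1, h2⟩ := exists_of_cnt hM P h
  refine ⟨χ, fun h3 => h2 ?_⟩
  have h4 := h3 s
  have h5 : centralChar (fun _ : G => (1 : ℂ)) s =
      ((Subgroup.centralizer ({s} : Set G)).index : ℂ) := by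
    unfold centralChar
    simp
  rw [h5] at h4
  have h6 : MemLocalIdeal M ((Subgroup.centralizer ({s} : Set G)).index : ℂ) :=
    (memLocalIdeal_natCast_iff hM _).2 hs
  have h7 := memLocalIdeal_sub h6 h4
  rwa [sub_sub_cancel] at h7

open scoped Classical in
/-- **helper483's criterion**: if all characters are in the principal block, then for every class and every
element `g` which is not a `p`-element the number `cnt p s g` is divisible by `p`. -/
theorem exists_notMem_of_cnt (hM : IsPModular p M) {s g : G} (hg : ¬ ∃ k : ℕ, orderOf g = p ^ k)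
    (h : ¬ p ∣ cnt p s g) : ∃ χ : IrrCharacter G, χ ∉ principalBlock M G := by
  have hMp : M.IsPrime := isPrime_of_isPModular hM
  have := Fintype.ofFinite G
  have : Finite (IrrCharacter G) := finite_irr
  have := Fintype.ofFinite (IrrCharacter G)
  by_contra hcon
  push Not at hcon
  obtain ⟨P⟩ : Nonempty (Sylow p G) := inferInstance
  obtain ⟨m, hm, he⟩ := exists_sum_eq P
  have h1 : ∑ χ : IrrCharacter G, (m χ : ℂ) * (centralChar (χ : G → ℂ) 1 * (χ : G → ℂ) g⁻¹) = 0 := by
    rw [← he 1 g, Finset.sum_eq_zero, Nat.cast_zero]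
    intro u hu
    have h2 : u = 1 := by
      have h3 := (Finset.mem_filter.1 hu).2
      exact isConj_one_right.1 h3
    rw [h2, one_mul]
    apply card_fixedBy_eq_zero P
    rwa [orderOf_inv]
  have h2 : ∀ χ : IrrCharacter G, centralChar (χ : G → ℂ) 1 = 1 := fun χ =>
    Cfsg.Agent.Blocks.Central.centralChar_one χ.2
  have h3 : MemLocalIdeal M ((∑ u with IsConj s u,
      Nat.card (MulAction.fixedBy (G ⧸ (P : Subgroup G)) (u * g⁻¹)) : ℕ) : ℂ) := by
    have h4 : ((∑ u with IsConj s u,
      Nat.card (MulAction.fixedBy (G ⧸ (P : Subgroup G)) (u * g⁻¹)) : ℕ) : ℂ) =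
      ∑ χ : IrrCharacter G, (m χ : ℂ) * ((centralChar (χ : G → ℂ) s -
        centralChar (fun _ : G => (1 : ℂ)) s) * (χ : G → ℂ) g⁻¹) := by
      rw [he s g]
      have h5 : ∑ χ : IrrCharacter G, (m χ : ℂ) * ((centralChar (χ : G → ℂ) s -
        centralChar (fun _ : G => (1 : ℂ)) s) * (χ : G → ℂ) g⁻¹) =
        ∑ χ : IrrCharacter G, (m χ : ℂ) * (centralChar (χ : G → ℂ) s * (χ : G → ℂ) g⁻¹) -
        centralChar (fun _ : G => (1 : ℂ)) s *
        ∑ χ : IrrCharacter G, (m χ : ℂ) * (centralChar (χ : G → ℂ) 1 * (χ : G → ℂ) g⁻¹) := by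
        rw [Finset.mul_sum, ← Finset.sum_sub_distrib]
        refine Finset.sum_congr rfl fun χ _ => ?_
        rw [h2 χ]
        ring
      rw [h5, h1, mul_zero, sub_zero]
    rw [h4]
    refine memLocalIdeal_sum fun χ _ => ?_
    refine memLocalIdeal_mul_left (memLocalRing_natCast _) ?_
    refine memLocalIdeal_mul_right (memLocalIdeal_sub_comm (hcon χ s)) ?_
    exact memLocalRing_of_isIntegral (H665.DefZero.isIntegral_char (isIrr_isCharacter χ.2) g⁻¹)
  have h5 := (memLocalIdeal_natCast_iff hM _).1 h3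
  have h6 := (Nat.modEq_zero_iff_dvd.2 h5).symm.trans (sum_modEq P s g)
  have h7 := Nat.modEq_zero_iff_dvd.1 h6.symm
  rcases (hp.out.dvd_mul).1 h7 with h8 | h8
  · exact h h8
  · exact P.not_dvd_index h8

/-- Every block contains an irreducible constituent of the permutation character on a Sylow subgroup. -/
theorem exists_fix_of_block (hM : IsPModular p M) {B : Set (IrrCharacter G)} (hB : IsPBlock M B)
    (P : Subgroup G) (hP : IsPGroup p P) : ∃ χ ∈ B, Fix P (χ : G → ℂ) := by
  classical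
  have hMp : M.IsPrime := isPrime_of_isPModular hM
  have := Fintype.ofFinite P
  have : Finite (IrrCharacter G) := finite_irr
  have := Fintype.ofFinite (IrrCharacter G)
  by_contra hcon
  push Not at hcon
  have h1 : ∀ z : P, z ≠ 1 → ∑ χ ∈ B.toFinset, (χ : G → ℂ) 1 * conj ((χ : G → ℂ) z) = 0 := by
    intro z hz
    rw [← Cfsg.Agent.S0907.result p M hM B hB 1 (z : G) (by
      rw [orderOf_one]; exact hp.out.one_lt.ne' ∘ Nat.dvd_one.1) ?_, finsum_mem_eq_toFinset_sum]
    obtain ⟨k, hk⟩ := (IsPGroup.iff_orderOf.1 hP) z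
    rw [← Subgroup.orderOf_coe] at hk
    rw [hk]
    apply dvd_pow_self
    rintro rfl
    rw [pow_zero, orderOf_eq_one_iff] at hk
    exact hz (Subtype.ext hk)
  have h2 : ∑ χ ∈ B.toFinset, (χ : G → ℂ) 1 * conj (∑ z : P, (χ : G → ℂ) z) =
      ∑ χ ∈ B.toFinset, (χ : G → ℂ) 1 * conj ((χ : G → ℂ) 1) := by
    have h3 : ∀ χ : IrrCharacter G, (χ : G → ℂ) 1 * conj (∑ z : P, (χ : G → ℂ) z) =
        ∑ z : P, (χ : G → ℂ) 1 * conj ((χ : G → ℂ) z) := by
      intro χ
      rw [map_sum, Finset.mul_sum]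
    rw [Finset.sum_congr rfl fun χ _ => h3 χ, Finset.sum_comm]
    rw [Finset.sum_eq_single (1 : P)]
    · rfl
    · intro z _ hz
      exact h1 z hz
    · intro h
      exact absurd (Finset.mem_univ _) h
  have h4 : ∑ χ ∈ B.toFinset, (χ : G → ℂ) 1 * conj (∑ z : P, (χ : G → ℂ) z) = 0 := by
    refine Finset.sum_eq_zero fun χ hχ => ?_
    have h5 := hcon χ (Set.mem_toFinset.1 hχ)
    rw [fix_iff, not_not] at h5
    rw [h5, map_zero, mul_zero]
  rw [h4] at h2
  obtain ⟨χ₀, hχ₀⟩ := Cfsg.Agent.Blocks.Basic.isPBlock_nonempty hB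
  have h6 : ∀ χ : IrrCharacter G, (χ : G → ℂ) 1 * conj ((χ : G → ℂ) 1) =
      ((charDegree (χ : G → ℂ) ^ 2 : ℕ) : ℂ) := by
    intro χ
    rw [Cfsg.Agent.Blocks.Knorr.charDegree_eq χ.2]
    simp [pow_two]
  rw [Finset.sum_congr rfl fun χ _ => h6 χ, ← Nat.cast_sum] at h2
  have h7 : 0 < ∑ χ ∈ B.toFinset, charDegree (χ : G → ℂ) ^ 2 :=
    Finset.sum_pos (fun χ _ => pow_pos (Cfsg.Agent.Blocks.Basic.charDegree_pos χ.2) 2)
      ⟨χ₀, Set.mem_toFinset.2 hχ₀⟩
  exact h7.ne (by exact_mod_cast h2)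

/-- A block all of whose degrees are divisible by `p` gives `IMC`. -/
theorem IMC_of_block (hM : IsPModular p M) {B : Set (IrrCharacter G)} (hB : IsPBlock M B)
    (h : ∀ χ ∈ B, p ∣ charDegree (χ : G → ℂ)) : IMC p G := by
  obtain ⟨P⟩ : Nonempty (Sylow p G) := inferInstance
  obtain ⟨χ, h1, h2⟩ := exists_fix_of_block hM hB (P : Subgroup G) P.isPGroup'
  exact ⟨χ, P, h χ h1, h2⟩

/-- A central character nonzero modulo `M` at a class of size divisible by `p` gives `IMC`. -/
theorem IMC_of_centralChar (hM : IsPModular p M) {s : G}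
    (hs : p ∣ (Subgroup.centralizer ({s} : Set G)).index)
    (h : ∃ χ : IrrCharacter G, ¬ MemLocalIdeal M (centralChar (χ : G → ℂ) s)) : IMC p G := by
  have hMp : M.IsPrime := isPrime_of_isPModular hM
  obtain ⟨χ, hχ⟩ := h
  have hB : IsPBlock M (blockOf M (χ : G → ℂ)) := ⟨χ, rfl⟩
  refine IMC_of_block hM hB fun ψ hψ => ?_
  have h1 : ¬ MemLocalIdeal M (centralChar (ψ : G → ℂ) s) := by
    rw [← memLocalIdeal_iff_of_sub (hψ s)]
    exact hχ
  have h3 := Cfsg.Agent.Blocks.DefectCard.factorization_index_le hM ψ.2 s h1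
  have h4 : 1 ≤ (Subgroup.centralizer ({s} : Set G)).index.factorization p :=
    hp.out.factorization_pos_of_dvd Subgroup.index_ne_zero_of_finite hs
  have h5 : charDegree (ψ : G → ℂ) ≠ 0 := (Cfsg.Agent.Blocks.Basic.charDegree_pos ψ.2).ne'
  exact (hp.out.dvd_iff_one_le_factorization h5).2 (h4.trans h3)

omit [Finite G] hp in
/-- Nonprincipal character from a nonvanishing central character. -/
theorem notMem_of_centralChar (hM : IsPModular p M) {s : G}
    (hs : p ∣ (Subgroup.centralizer ({s} : Set G)).index) {χ : IrrCharacter G}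
    (h : ¬ MemLocalIdeal M (centralChar (χ : G → ℂ) s)) : χ ∉ principalBlock M G := by
  have hMp : M.IsPrime := isPrime_of_isPModular hM
  intro h3
  apply h
  have h4 := h3 s
  have h5 : centralChar (fun _ : G => (1 : ℂ)) s =
      ((Subgroup.centralizer ({s} : Set G)).index : ℂ) := by
    unfold centralChar
    simp
  rw [h5] at h4
  have h6 : MemLocalIdeal M ((Subgroup.centralizer ({s} : Set G)).index : ℂ) :=
    (memLocalIdeal_natCast_iff hM _).2 hs
  have h7 := memLocalIdeal_sub h6 h4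
  rwa [sub_sub_cancel] at h7

end Cfsg.Agent.H928.Blk
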